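import Mathlib
import Cfsg.Agent.Lib.FrobId.Basic

/-!
# A coprime-action consequence of the averaging identity

If `y` normalizes the `p'`-subgroup `R`, the powers `y ^ i` (`0 < i < m`) act fixed-point-freely on `R`, and
all the products `y * x`, `x` in the normal `p`-subgroup `P`, have `m`-th power one, then `R` centralizes `P`.
-/

set_option autoImplicit false

namespace Cfsg.Agent.Lib.FrobId

section orb

variable {W V : Type*} [Group W] [CommGroup V] [MulDistribMulAction W V]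

lemma orb_mul (R : Subgroup W) [Fintype R] (a b : V) : orb R (a * b) = orb R a * orb R b := by
  unfold orb
  simp_rw [smul_mul']
  exact Finset.prod_mul_distrib

lemma orb_inv (R : Subgroup W) [Fintype R] (a : V) : orb R a⁻¹ = (orb R a)⁻¹ := by
  unfold orb
  simp_rw [smul_inv']
  rw [Finset.prod_inv_distrib]

lemma orb_smul (R : Subgroup W) [Fintype R] (d : W) (hd : d ∈ R) (w : V) : orb R (d • w) = orb R w := by
  unfold orb
  simp_rw [smul_smul]
  exact Fintype.prod_equiv (Equiv.mulRight (⟨d, hd⟩ : R)) _ _ (fun c => rfl)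

lemma pow_conj_mem (R : Subgroup W) (y : W) (hy : ∀ c ∈ R, y * c * y⁻¹ ∈ R) (i : ℕ) :
    ∀ c ∈ R, y ^ i * c * (y ^ i)⁻¹ ∈ R := by
  induction i with
  | zero => intro c hc; simpa using hc
  | succ i ih =>
    intro c hc
    have h1 := hy _ (ih c hc)
    have h2 : y * (y ^ i * c * (y ^ i)⁻¹) * y⁻¹ = y ^ (i + 1) * c * (y ^ (i + 1))⁻¹ := by
      rw [pow_succ']; group
    rwa [h2] at h1

/-- `|R|` kills the commutators `v (c • v)⁻¹` as soon as the norm `T` vanishes. -/
theorem kills_commutators (R : Subgroup W) [Fintype R] (y : W) (m : ℕ) (hmpos : 0 < m)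
    (hy : ∀ c ∈ R, y * c * y⁻¹ ∈ R)
    (hfpf : ∀ i, 0 < i → i < m → ∀ c ∈ R, Commute c (y ^ i) → c = 1)
    (hT : ∀ u : V, cyc y m u = 1) (v : V) (c : W) (hc : c ∈ R) :
    (v * (c • v)⁻¹) ^ Fintype.card R = 1 := by
  have h := prod_conj_identity R y m hmpos hy hfpf (v * (c • v)⁻¹)
  simp only [hT, smul_one, Finset.prod_const_one] at h
  have h2 : ∏ i ∈ Finset.Ico 1 m, orb R ((y ^ i) • (v * (c • v)⁻¹)) = 1 := by
    apply Finset.prod_eq_one
    intro i _
    have h3 : (y ^ i) • (v * (c • v)⁻¹)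
        = ((y ^ i) • v) * ((y ^ i * c * (y ^ i)⁻¹) • ((y ^ i) • v))⁻¹ := by
      rw [smul_mul', smul_inv', smul_smul, smul_smul]
      simp
    rw [h3, orb_mul, orb_inv, orb_smul R _ (pow_conj_mem R y hy i c hc), mul_inv_cancel]
  rw [h2, mul_one] at h
  exact h.symm

end orb

section center

variable {Γ : Type*} [Group Γ]

/-- The abelian case. -/
theorem center_step [Finite Γ] (Z R : Subgroup Γ) [hZn : Z.Normal] (hZab : ∀ a ∈ Z, ∀ b ∈ Z, a * b = b * a)
    (hcop : ∀ z ∈ Z, z ^ Nat.card R = 1 → z = 1) (y : Γ) (m : ℕ) (hm : 0 < m)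
    (hyR : ∀ c ∈ R, y * c * y⁻¹ ∈ R)
    (hfpf : ∀ i, 0 < i → i < m → ∀ c ∈ R, Commute c (y ^ i) → c = 1)
    (hstar : ∀ x ∈ Z, (y * x) ^ m = 1) :
    ∀ c ∈ R, ∀ v ∈ Z, c * v * c⁻¹ = v := by
  classical
  letI hZc : CommGroup Z := { (inferInstance : Group Z) with
    mul_comm := fun a b => Subtype.ext (hZab a a.2 b b.2) }
  letI act : MulDistribMulAction Γ Z :=
    MulDistribMulAction.compHom Z (MulAut.conjNormal : Γ →* MulAut Z)
  have hact : ∀ (g : Γ) (v : Z), ((g • v : Z) : Γ) = g * v * g⁻¹ := fun g v => MulAut.conjNormal_apply g v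
  letI := Fintype.ofFinite R
  have hym : y ^ m = 1 := by
    have := hstar 1 Z.one_mem
    simpa using this
  have hpow : ∀ (k : ℕ) (u : Z), (y * u) ^ k = ((∏ i ∈ Finset.range k, (y ^ (i + 1)) • u : Z) : Γ) * y ^ k := by
    intro k u
    induction k with
    | zero => simp
    | succ k ih =>
      rw [pow_succ, ih, Finset.prod_range_succ]
      rw [Subgroup.coe_mul, hact]
      have e : (y ^ (k + 1)) = y ^ k * y := pow_succ y k
      rw [e]
      group
  have hT : ∀ u : Z, cyc y m u = 1 := by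
    intro u
    have h1 := hpow m u
    rw [hstar u u.2, hym, mul_one] at h1
    have h2 : (∏ i ∈ Finset.range m, (y ^ (i + 1)) • u : Z) = 1 := Subtype.ext h1.symm
    have h3 : y • cyc y m u = 1 := by
      unfold cyc
      rw [smul_finset_prod, ← h2]
      refine Finset.prod_congr rfl fun i _ => ?_
      rw [smul_smul, pow_succ']
    have h4 : cyc y m u = y⁻¹ • (y • cyc y m u) := by simp
    rw [h4, h3, smul_one]
  intro c hc v hv
  have h := kills_commutators R y m hm hyR hfpf hT (⟨v, hv⟩ : Z) c hc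
  have h1 : ((⟨v, hv⟩ : Z) * (c • (⟨v, hv⟩ : Z))⁻¹) ^ Nat.card R = 1 := by
    rw [Nat.card_eq_fintype_card]; exact h
  have h2 := hcop _ ((⟨v, hv⟩ : Z) * (c • (⟨v, hv⟩ : Z))⁻¹).2 (congrArg Subtype.val h1)
  have h3 : (⟨v, hv⟩ : Z) * (c • (⟨v, hv⟩ : Z))⁻¹ = 1 := Subtype.ext h2
  have h4 : (⟨v, hv⟩ : Z) = c • (⟨v, hv⟩ : Z) := mul_inv_eq_one.1 h3
  have h5 := congrArg Subtype.val h4
  rw [hact] at h5
  exact h5.symm

end center

universe u

/-- The general case, by induction along the centre of `P`. -/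
theorem centralizes_of_norm (p : ℕ) [hp : Fact p.Prime] : ∀ (n : ℕ) (Γ : Type u) [Group Γ] [Finite Γ]
    (_ : Nat.card Γ = n) (P R : Subgroup Γ) [P.Normal] (_ : IsPGroup p P)
    (_ : (Nat.card R).Coprime p) (y : Γ) (m : ℕ) (_ : 0 < m)
    (_ : ∀ c ∈ R, y * c * y⁻¹ ∈ R)
    (_ : ∀ i, 0 < i → i < m → ∀ c ∈ R, Commute c (y ^ i) → c = 1)
    (_ : ∀ x ∈ P, (y * x) ^ m = 1), ∀ c ∈ R, ∀ x ∈ P, Commute c x := by
  intro n
  induction n using Nat.strong_induction_on with
  | _ n ih =>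
  intro Γ _ _ hcard P R _ hPp hcop y m hm hyR hfpf hstar c hc x hx
  classical
  -- elements of `P` with a power coprime to `p`
  have hPord : ∀ z ∈ P, ∀ d : ℕ, d.Coprime p → z ^ d = 1 → z = 1 := by
    intro z hz d hd hzd
    obtain ⟨k, hk⟩ := hPp ⟨z, hz⟩
    have h1 : z ^ p ^ k = 1 := by
      have := congrArg Subtype.val hk
      simpa using this
    have h2 : orderOf z ∣ Nat.gcd d (p ^ k) :=
      Nat.dvd_gcd (orderOf_dvd_of_pow_eq_one hzd) (orderOf_dvd_of_pow_eq_one h1)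
    have h3 : Nat.gcd d (p ^ k) = 1 := Nat.Coprime.pow_right k hd
    rw [h3] at h2
    exact orderOf_eq_one_iff.1 (Nat.dvd_one.1 h2)
  by_cases hPbot : P = ⊥
  · rw [hPbot, Subgroup.mem_bot] at hx
    rw [hx]
    exact Commute.one_right c
  -- the centre of `P`
  let Z : Subgroup Γ := P ⊓ Subgroup.centralizer (P : Set Γ)
  have hZmem : ∀ v, v ∈ Z ↔ v ∈ P ∧ ∀ x ∈ P, x * v = v * x := by
    intro v
    simp only [Z, Subgroup.mem_inf, Subgroup.mem_centralizer_iff, SetLike.mem_coe]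
  have hZP : Z ≤ P := inf_le_left
  have hZab : ∀ a ∈ Z, ∀ b ∈ Z, a * b = b * a := by
    intro a ha b hb
    exact ((hZmem b).1 hb).2 a ((hZmem a).1 ha).1
  have hZn : Z.Normal := by
    constructor
    intro v hv g
    obtain ⟨h1, h2⟩ := (hZmem v).1 hv
    rw [hZmem]
    refine ⟨Subgroup.Normal.conj_mem inferInstance v h1 g, fun w hw => ?_⟩
    have hw' : g⁻¹ * w * g ∈ P := by
      have := Subgroup.Normal.conj_mem (inferInstance : P.Normal) w hw g⁻¹
      simpa using this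
    have h3 := h2 _ hw'
    calc w * (g * v * g⁻¹) = g * ((g⁻¹ * w * g) * v) * g⁻¹ := by group
      _ = g * (v * (g⁻¹ * w * g)) * g⁻¹ := by rw [h3]
      _ = g * v * g⁻¹ * w := by group
  have hZbot : Z ≠ ⊥ := by
    have hPnt : Nontrivial P := (Subgroup.nontrivial_iff_ne_bot P).2 hPbot
    have hzc := hPp.center_nontrivial
    obtain ⟨z, hz⟩ := exists_ne (1 : Subgroup.center P)
    intro h
    have h1 : ((z : P) : Γ) ∈ Z := by
      rw [hZmem]
      refine ⟨(z : P).2, fun x hx => ?_⟩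
      have := (Subgroup.mem_center_iff.1 z.2) ⟨x, hx⟩
      exact congrArg Subtype.val this
    rw [h, Subgroup.mem_bot] at h1
    apply hz
    apply Subtype.ext
    apply Subtype.ext
    exact h1
  have hstep := center_step Z R hZab (fun z hz h1 => hPord z (hZP hz) _ hcop h1) y m hm hyR hfpf
    (fun x hx => hstar x (hZP hx))
  -- the quotient
  let π : Γ →* Γ ⧸ Z := QuotientGroup.mk' Z
  have hπs : Function.Surjective π := QuotientGroup.mk'_surjective Z
  have hπ1 : ∀ a, π a = 1 ↔ a ∈ Z := fun a => QuotientGroup.eq_one_iff a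
  have hlt : Nat.card (Γ ⧸ Z) < n := by
    rw [← hcard, ← Subgroup.card_mul_index Z]
    have h1 : 1 < Nat.card Z := by
      rw [Finite.one_lt_card_iff_nontrivial]
      exact (Subgroup.nontrivial_iff_ne_bot Z).2 hZbot
    have h2 : 0 < Z.index := Nat.pos_of_ne_zero Subgroup.index_ne_zero_of_finite
    have h3 : Nat.card (Γ ⧸ Z) = Z.index := rfl
    rw [h3]
    nlinarith
  have hPn' : (P.map π).Normal := Subgroup.Normal.map inferInstance π hπs
  have hcop' : (Nat.card (R.map π)).Coprime p := by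
    have h1 : Nat.card (R.map π) ∣ Nat.card R :=
      Subgroup.card_dvd_of_surjective (π.subgroupMap R) (π.subgroupMap_surjective R)
    exact Nat.Coprime.coprime_dvd_left h1 hcop
  have hcomm := ih _ hlt (Γ ⧸ Z) rfl (P.map π) (R.map π) (hPp.map π) hcop' (π y) m hm
    (by
      rintro _ ⟨c, hc, rfl⟩
      refine ⟨_, hyR c hc, ?_⟩
      simp)
    (by
      rintro i hi0 him _ ⟨c, hc, rfl⟩ hcomm
      have h1 : Commute c (y ^ i) := by
        have h2 : c * (y ^ i * c⁻¹ * (y ^ i)⁻¹) ∈ Z := by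
          rw [← hπ1]
          have h3 : π c * π y ^ i = π y ^ i * π c := hcomm
          simp only [map_mul, map_inv, map_pow]
          calc π c * (π y ^ i * (π c)⁻¹ * (π y ^ i)⁻¹) = (π c * π y ^ i) * (π c)⁻¹ * (π y ^ i)⁻¹ := by group
            _ = 1 := by rw [h3]; group
        have h4 : c * (y ^ i * c⁻¹ * (y ^ i)⁻¹) ∈ R :=
          R.mul_mem hc (pow_conj_mem R y hyR i _ (R.inv_mem hc))
        have h5 : (c * (y ^ i * c⁻¹ * (y ^ i)⁻¹)) ^ Nat.card R = 1 := by
          have := pow_card_eq_one' (x := (⟨_, h4⟩ : R))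
          exact congrArg Subtype.val this
        have h6 := hPord _ (hZP h2) _ hcop h5
        show c * y ^ i = y ^ i * c
        calc c * y ^ i = (c * (y ^ i * c⁻¹ * (y ^ i)⁻¹)) * (y ^ i * c) := by group
          _ = y ^ i * c := by rw [h6, one_mul]
      rw [hfpf i hi0 him c hc h1, map_one])
    (by
      rintro _ ⟨x, hx, rfl⟩
      rw [← map_mul, ← map_pow, hstar x hx, map_one])
    (π c) ⟨c, hc, rfl⟩ (π x) ⟨x, hx, rfl⟩
  -- the commutator lies in `Z`
  obtain ⟨z, hz⟩ : ∃ z, z = c * x * c⁻¹ * x⁻¹ := ⟨_, rfl⟩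
  have hzZ : z ∈ Z := by
    rw [← hπ1, hz]
    have h3 : π c * π x = π x * π c := hcomm
    simp only [map_mul, map_inv]
    rw [h3]
    group
  have hcz : c * z * c⁻¹ = z := hstep c hc z hzZ
  have hcx : c * x * c⁻¹ = z * x := by rw [hz]; group
  have hpw : ∀ k : ℕ, c ^ k * x * (c ^ k)⁻¹ = z ^ k * x := by
    intro k
    induction k with
    | zero => simp
    | succ k ih =>
      have e1 : c ^ (k + 1) * x * (c ^ (k + 1))⁻¹ = c * (c ^ k * x * (c ^ k)⁻¹) * c⁻¹ := by
        rw [pow_succ']; group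
      have e2 : c * (z ^ k * x) * c⁻¹ = (c * z * c⁻¹) ^ k * (c * x * c⁻¹) := by
        rw [conj_pow]; group
      rw [e1, ih, e2, hcz, hcx, pow_succ, mul_assoc]
  have h1 := hpw (orderOf c)
  rw [pow_orderOf_eq_one] at h1
  have h2 : z ^ orderOf c = 1 := by
    have : x = z ^ orderOf c * x := by simpa using h1
    exact (mul_eq_right.1 this.symm)
  have hcopc : (orderOf c).Coprime p := by
    have h3 : orderOf c ∣ Nat.card R := by
      have := orderOf_dvd_natCard (⟨c, hc⟩ : R)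
      rwa [Subgroup.orderOf_mk] at this
    exact Nat.Coprime.coprime_dvd_left h3 hcop
  have h3 := hPord z (hZP hzZ) _ hcopc h2
  show c * x = x * c
  rw [hz] at h3
  calc c * x = (c * x * c⁻¹ * x⁻¹) * (x * c) := by group
    _ = x * c := by rw [h3, one_mul]

end Cfsg.Agent.Lib.FrobId
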